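import Cfsg.Agent.H953.O8R.Sys
import Cfsg.Agent.H578.RC.Lin

/-!
# S3691, row `PΩ⁺₈(q)`, SPIN, GEO-OM: basic facts (helper442)
-/

set_option autoImplicit false
set_option linter.unusedSectionVars false

namespace Cfsg.Agent.H442.O8R

open Module QuadraticMap Cfsg.Agent.H953.O8R Cfsg.Agent.H578.RC Cfsg.Agent.LieClassical.OrthCore
open scoped commutatorElement

variable {F V Γ T G : Type} [Field F] [Fintype F] [AddCommGroup V] [Module F V] [FiniteDimensional F V] [Group Γ] [Group T] [Group G]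
  {Q : QuadraticForm F V} {ρ : Γ →* Module.End F V} {π : Γ →* T} {f : G →* T} {n : ℕ} {t : Fin 3 → G}
  {L : Fin 3 → Subgroup G} {r : Fin 3 → Module.End F V} {c : F}

/-! ### The representation -/

theorem mul_ap (g h : Γ) (v : V) : ρ (g * h) v = ρ g (ρ h v) := by rw [map_mul]; rfl

theorem one_ap (v : V) : ρ 1 v = v := by rw [map_one]; rfl

theorem inv_ap (g : Γ) (v : V) : ρ g⁻¹ (ρ g v) = v := by rw [← mul_ap, inv_mul_cancel, one_ap]

theorem ap_inv (g : Γ) (v : V) : ρ g (ρ g⁻¹ v) = v := by rw [← mul_ap, mul_inv_cancel, one_ap]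

section sys

variable (hS : Sys Q ρ π)

include hS

theorem nd : Nondeg Q := fun v hv => hS.nondeg v fun u => by rw [polar_comm]; exact hv u

theorem pol (g : Γ) (u v : V) : polar Q (ρ g u) (ρ g v) = polar Q u v := by
  rw [polar, polar, ← map_add, hS.iso, hS.iso, hS.iso]

theorem pol_inv (g : Γ) (u v : V) : polar Q (ρ g u) v = polar Q u (ρ g⁻¹ v) := by
  rw [← pol hS g u, ap_inv]

/-- fixed vectors are orthogonal to the commutator space -/
theorem pol_fix {g : Γ} {v : V} (hv : ρ g v = v) (a : V) : polar Q (ρ g a - a) v = 0 := by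
  rw [polar_sub_left]
  nth_rewrite 1 [← hv]
  rw [pol hS, sub_self]

/-- a vector orthogonal to the commutator space is fixed -/
theorem fix_of_perp {g : Γ} {v : V} (hv : ∀ a, polar Q (ρ g a - a) v = 0) : ρ g v = v := by
  apply sub_eq_zero.1
  apply hS.nondeg
  intro u
  have h1 := hv (ρ g⁻¹ u)
  rw [ap_inv, polar_sub_left] at h1
  rw [polar_sub_right]
  have h2 : polar Q u (ρ g v) = polar Q (ρ g⁻¹ u) v := by
    rw [pol_inv hS, inv_inv]
  rw [h2]
  linear_combination -h1

theorem faithful {g : Γ} (h : ∀ v, ρ g v = v) : g = 1 := by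
  apply hS.inj
  rw [map_one]
  exact LinearMap.ext h

end sys

/-! ### Spans of translates -/

/-- the span of the translates -/
def Sp (ρ : Γ →* Module.End F V) (H : Subgroup Γ) (P : Submodule F V) : Submodule F V :=
  Submodule.span F {x | ∃ m ∈ H, ∃ v ∈ P, x = ρ m v}

section sp

variable {H : Subgroup Γ} {P : Submodule F V}

theorem mem_Sp {m : Γ} (hm : m ∈ H) {v : V} (hv : v ∈ P) : ρ m v ∈ Sp ρ H P := Submodule.subset_span ⟨m, hm, v, hv, rfl⟩

theorem le_Sp : P ≤ Sp ρ H P := fun v hv => by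
  have := mem_Sp (ρ := ρ) (one_mem H) hv
  rwa [one_ap] at this

theorem Sp_inv {m : Γ} (hm : m ∈ H) {x : V} (hx : x ∈ Sp ρ H P) : ρ m x ∈ Sp ρ H P := by
  induction hx using Submodule.span_induction with
  | mem x hx =>
    obtain ⟨g, hg, v, hv, rfl⟩ := hx
    rw [← mul_ap]
    exact mem_Sp (mul_mem hm hg) hv
  | zero => rw [map_zero]; exact Submodule.zero_mem _
  | add x y _ _ hx hy => rw [map_add]; exact Submodule.add_mem _ hx hy
  | smul c x _ hx => rw [map_smul]; exact Submodule.smul_mem _ _ hx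

theorem Sp_perp (hS : Sys Q ρ π) {u : V} (h1 : ∀ m ∈ H, ρ m u = u) (h2 : ∀ p ∈ P, polar Q p u = 0) {x : V}
    (hx : x ∈ Sp ρ H P) : polar Q x u = 0 := by
  induction hx using Submodule.span_induction with
  | mem x hx =>
    obtain ⟨g, hg, v, hv, rfl⟩ := hx
    rw [pol_inv hS, h1 _ (inv_mem hg), h2 v hv]
  | zero => rw [polar_zero_left]
  | add x y _ _ hx hy => rw [polar_add_left, hx, hy, add_zero]
  | smul c x _ hx => rw [polar_smul_left, hx, smul_zero]

theorem Sp_fix {y : Γ} (h1 : ∀ m ∈ H, y * m = m * y) (h2 : ∀ p ∈ P, ρ y p = p) {x : V} (hx : x ∈ Sp ρ H P) :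
    ρ y x = x := by
  induction hx using Submodule.span_induction with
  | mem x hx =>
    obtain ⟨g, hg, v, hv, rfl⟩ := hx
    rw [← mul_ap, h1 g hg, mul_ap, h2 v hv]
  | zero => rw [map_zero]
  | add x y _ _ hx hy => rw [map_add, hx, hy]
  | smul c x _ hx => rw [map_smul, hx]

end sp

/-! ### The planes -/

section rs

variable (hS : Sys Q ρ π) (h2 : (2 : F) ≠ 0) (hR : RS Q ρ π f t L r c)

include hR

theorem rpol (i : Fin 3) (u v : V) : polar Q (r i u) (r i v) = polar Q u v := by
  rw [polar, polar, ← map_add, hR.iso, hR.iso, hR.iso]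

theorem mem_ker {i : Fin 3} {v : V} : v ∈ LinearMap.ker (r i - 1) ↔ r i v = v := by
  rw [LinearMap.mem_ker, LinearMap.sub_apply, sub_eq_zero]; rfl

theorem mem_P (i : Fin 3) (a : V) : r i a - a ∈ LinearMap.range (r i - 1) := ⟨a, rfl⟩

theorem perp_ker {i : Fin 3} {p k : V} (hp : p ∈ LinearMap.range (r i - 1)) (hk : r i k = k) : polar Q p k = 0 := by
  obtain ⟨a, rfl⟩ := hp
  change polar Q (r i a - a) k = 0
  rw [polar_sub_left]
  nth_rewrite 1 [← hk]
  rw [rpol hR, sub_self]

theorem exists_dec (i : Fin 3) (v : V) : ∃ p ∈ LinearMap.range (r i - 1), ∃ k, r i k = k ∧ v = p + k := by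
  have h1 : v ∈ LinearMap.range (r i - 1) ⊔ LinearMap.ker (r i - 1) := by
    rw [(hR.compl i).sup_eq_top]; exact Submodule.mem_top
  obtain ⟨p, hp, k, hk, rfl⟩ := Submodule.mem_sup.1 h1
  exact ⟨p, hp, k, (mem_ker hR).1 hk, rfl⟩

theorem inf_zero {i : Fin 3} {v : V} (hv : v ∈ LinearMap.range (r i - 1)) (hk : r i v = v) : v = 0 := by
  have h1 : v ∈ LinearMap.range (r i - 1) ⊓ LinearMap.ker (r i - 1) := ⟨hv, (mem_ker hR).2 hk⟩
  rw [(hR.compl i).inf_eq_bot] at h1
  exact h1

include hS in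
theorem P_nd {i : Fin 3} {p : V} (hp : p ∈ LinearMap.range (r i - 1))
    (h : ∀ v ∈ LinearMap.range (r i - 1), polar Q v p = 0) : p = 0 := by
  apply hS.nondeg
  intro u
  obtain ⟨v, hv, k, hk, rfl⟩ := exists_dec hR i u
  rw [polar_add_left, h v hv, polar_comm, perp_ker hR hp hk, add_zero]

include hS in
/-- the orthogonal space of a plane -/
theorem fix_iff {i : Fin 3} {v : V} : r i v = v ↔ ∀ p ∈ LinearMap.range (r i - 1), polar Q p v = 0 := by
  refine ⟨fun h p hp => perp_ker hR hp h, fun h => ?_⟩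
  obtain ⟨p, hp, k, hk, rfl⟩ := exists_dec hR i v
  have h1 : p = 0 := by
    apply P_nd hS hR hp
    intro v hv
    have h2 := h v hv
    rw [polar_add_right, perp_ker hR hv hk, add_zero] at h2
    exact h2
  rw [h1, zero_add, hk]

theorem r_mem {i : Fin 3} {v : V} (hv : v ∈ LinearMap.range (r i - 1)) : r i v ∈ LinearMap.range (r i - 1) := by
  have h1 := Submodule.add_mem _ (mem_P hR i v) hv
  rwa [sub_add_cancel] at h1

theorem P_ne (i : Fin 3) : ∃ p ∈ LinearMap.range (r i - 1), p ≠ 0 := by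
  have h1 : LinearMap.range (r i - 1) ≠ ⊥ := by
    intro h
    have h2 := hR.dim i
    rw [h, finrank_bot] at h2
    exact absurd h2 (by norm_num)
  obtain ⟨p, hp, hp0⟩ := Submodule.exists_mem_ne_zero_of_ne_bot h1
  exact ⟨p, hp, hp0⟩

/-- no eigenvectors -/
theorem no_eig {i : Fin 3} {v : V} (hv : v ∈ LinearMap.range (r i - 1)) {a : F} (h : r i v = a • v) : v = 0 := by
  by_contra h0
  have h1 := hR.quad i v hv
  rw [h, map_smul, h, smul_smul, smul_smul] at h1
  have h3 : (a * a - c * a + 1) • v = 0 := by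
    rw [add_smul, sub_smul, h1, one_smul]
    abel
  rcases smul_eq_zero.1 h3 with h4 | h4
  · exact hR.irr a h4
  · exact h0 h4

/-- a lift of `t i` is not trivial on the plane -/
theorem lift_ne {i : Fin 3} {h : Γ} (hh : π h = f (t i)) (htr : ∀ v ∈ LinearMap.range (r i - 1), ρ h v = v) : False := by
  obtain ⟨e, he, hl⟩ := hR.lift i h hh
  obtain ⟨p, hp, hp0⟩ := P_ne hR i
  have h1 := htr p hp
  rw [hl] at h1
  rcases he with rfl | rfl
  · exact hp0 (no_eig hR hp (a := 1) (by rw [one_smul] at h1; rw [one_smul]; exact h1))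
  · exact hp0 (no_eig hR hp (a := -1) (by
      rw [neg_smul, one_smul] at h1 ⊢
      exact neg_eq_iff_eq_neg.1 h1))

include h2 in
/-- vectors fixed by a lift of `t i` are orthogonal to the plane -/
theorem fix_lift {i : Fin 3} {h : Γ} (hh : π h = f (t i)) {v : V} (hv : ρ h v = v) : r i v = v := by
  obtain ⟨e, he, hl⟩ := hR.lift i h hh
  rw [hl] at hv
  rcases he with rfl | rfl
  · rwa [one_smul] at hv
  obtain ⟨p, hp, k, hk, rfl⟩ := exists_dec hR i v
  rw [map_add, hk, smul_add, neg_smul, one_smul, neg_smul, one_smul] at hv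
  have h3 : -(r i p + p) = (2 : F) • k := by
    have h4 : -(r i p) = p + k + k := sub_eq_iff_eq_add.1 (by rw [sub_eq_add_neg]; exact hv)
    rw [neg_add, h4, two_smul]
    abel
  have h5 : (2 : F) • k = 0 := by
    apply inf_zero hR (i := i)
    · rw [← h3]
      exact Submodule.neg_mem _ (Submodule.add_mem _ (r_mem hR hp) hp)
    · rw [map_smul, hk]
  have hk0 : k = 0 := (smul_eq_zero.1 h5).resolve_left h2
  have hp0 : p = 0 := by
    apply no_eig hR hp (a := -1)
    rw [h5, neg_eq_zero] at h3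
    rw [neg_smul, one_smul]
    exact eq_neg_of_add_eq_zero_left h3
  rw [hk0, hp0, add_zero, map_zero]

include hS h2 in
/-- the planes are anisotropic -/
theorem P_ani {i : Fin 3} {v : V} (hv : v ∈ LinearMap.range (r i - 1)) (h0 : Q v = 0) : v = 0 := by
  by_contra hne
  have h1 : polar Q v (r i v) = 0 := by
    have e1 := rpol hR i (r i v) v
    rw [hR.quad i v hv, polar_sub_left, polar_smul_left, QuadraticMap.polar_self, hR.iso, h0, smul_zero, smul_zero,
      zero_sub] at e1
    have e2 : polar Q (r i v) v = polar Q v (r i v) := polar_comm _ _ _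
    rw [e2] at e1
    have e3 : (2 : F) * polar Q v (r i v) = 0 := by linear_combination -e1
    exact (mul_eq_zero.1 e3).resolve_left h2
  apply hne
  apply P_nd hS hR hv
  -- `v`, `r v` span the plane
  have hli : LinearIndependent F ![v, r i v] := by
    rw [LinearIndependent.pair_iff' hne]
    intro a ha
    exact hne (no_eig hR hv ha.symm)
  have hsp : Submodule.span F (Set.range ![v, r i v]) = LinearMap.range (r i - 1) := by
    apply Submodule.eq_of_le_of_finrank_le
    · rw [Submodule.span_le]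
      rintro _ ⟨j, rfl⟩
      fin_cases j
      · exact hv
      · exact r_mem hR hv
    · rw [hR.dim i, finrank_span_eq_card hli]
      simp
  intro w hw
  rw [← hsp, Matrix.range_cons, Matrix.range_cons, Matrix.range_empty, Set.union_empty, Set.singleton_union,
    Submodule.mem_span_pair] at hw
  obtain ⟨a, b, rfl⟩ := hw
  rw [polar_add_left, polar_smul_left, polar_smul_left, QuadraticMap.polar_self, h0, polar_comm _ _ v, h1]
  simp

end rs

end Cfsg.Agent.H442.O8R
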