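import Cfsg.Agent.H442.O8R.Base

/-!
# S3691, row `PΩ⁺₈(q)`, SPIN, GEO-OM: the space `X` (helper442)
-/

set_option autoImplicit false
set_option linter.unusedSectionVars false

namespace Cfsg.Agent.H442.O8R

open Module QuadraticMap Cfsg.Agent.H953.O8R Cfsg.Agent.H578.RC Cfsg.Agent.LieClassical.OrthCore
open scoped commutatorElement

variable {F V Γ T G : Type} [Field F] [Fintype F] [AddCommGroup V] [Module F V] [FiniteDimensional F V] [Group Γ] [Group T] [Group G]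
  {Q : QuadraticForm F V} {ρ : Γ →* Module.End F V} {π : Γ →* T} {f : G →* T} {n : ℕ} {t : Fin 3 → G}
  {L : Fin 3 → Subgroup G} {r : Fin 3 → Module.End F V} {c : F}

/-- the perfect lift of `M` -/
abbrev Mh (π : Γ →* T) (f : G →* T) (M : Subgroup G) : Subgroup Γ := hat π (M.map f)

/-- perfect subgroups of `Γ` preserving a plane are trivial on it -/
def TrP (ρ : Γ →* Module.End F V) (r : Fin 3 → Module.End F V) : Prop :=
  ∀ (H : Subgroup Γ), ⁅H, H⁆ = H → ∀ i, (∀ h ∈ H, ∀ v ∈ LinearMap.range (r i - 1), ρ h v ∈ LinearMap.range (r i - 1)) →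
    ∀ h ∈ H, ∀ v ∈ LinearMap.range (r i - 1), ρ h v = v

/-- (RAD) -/
def RdP (Q : QuadraticForm F V) (ρ : Γ →* Module.End F V) (r : Fin 3 → Module.End F V) : Prop :=
  ∀ (H : Subgroup Γ), ⁅H, H⁆ = H → ∀ i (y : V), Q y = 0 → (∀ p ∈ LinearMap.range (r i - 1), polar Q p y = 0) →
    (∀ h ∈ H, ρ h y = y) →
    (∀ h ∈ H, ∀ v ∈ LinearMap.range (r i - 1), ∃ p ∈ LinearMap.range (r i - 1), ∃ a : F, ρ h v = p + a • y) →
    ∀ h ∈ H, ∀ v ∈ LinearMap.range (r i - 1), ρ h v = v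

section om

variable (hS : Sys Q ρ π) (hf : Function.Injective f) (h2 : (2 : F) ≠ 0) {A B M : Subgroup G} {s : G} {k : ℕ}
  {g : Fin 5 → G} (hD : DOm G n t L A B M s k g) (hR : RS Q ρ π f t L r c) (hT : TrP ρ r) (hRd : RdP Q ρ r)

include hD in
theorem Mperf : ⁅M.map f, M.map f⁆ = M.map f := by rw [← Subgroup.map_commutator, hD.perf]

include hS hD in
theorem Mh_perf : ⁅Mh π f M, Mh π f M⁆ = Mh π f M := hat_perf hS.central hS.surj (Mperf hD)

include hS hD in
theorem Mh_lift {m : G} (hm : m ∈ M) : ∃ x ∈ Mh π f M, π x = f m :=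
  exists_hat hS.surj (Mperf hD) (Subgroup.mem_map_of_mem f hm)

theorem Mh_pi {x : Γ} (hx : x ∈ Mh π f M) : ∃ m ∈ M, f m = π x := mem_of_hat hx

include hD hR in
theorem Mh_triv {i : Fin 3} (hi : i ≠ 0) {x : Γ} (hx : x ∈ Mh π f M) {v : V} (hv : v ∈ LinearMap.range (r i - 1)) :
    ρ x v = v := by
  have hi' : i = 1 ∨ i = 2 := by omega
  rcases hi' with rfl | rfl
  · exact hR.triv 1 x (hat_mono (Subgroup.map_mono hD.le₁) hx) v hv
  · exact hR.triv 2 x (hat_mono (Subgroup.map_mono hD.le₂) hx) v hv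

include hS hD hR in
theorem Mh_uniq {x y : Γ} (hx : x ∈ Mh π f M) (hy : y ∈ Mh π f M) (h : π x = π y) : x = y := by
  have h1 : π (x⁻¹ * y) = 1 := by rw [map_mul, map_inv, h, inv_mul_cancel]
  obtain ⟨e, he⟩ := (hS.ker _).1 h1
  obtain ⟨p, hp, hp0⟩ := P_ne hR 1
  have h3 := Mh_triv hD hR (i := 1) (by decide) (mul_mem (inv_mem hx) hy) hp
  rw [he] at h3
  have he1 : e = 1 := by
    have h4 : (e - 1) • p = 0 := by rw [sub_smul, h3, one_smul, sub_self]
    exact sub_eq_zero.1 ((smul_eq_zero.1 h4).resolve_right hp0)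
  have h5 := faithful hS (g := x⁻¹ * y) (fun v => by rw [he, he1, one_smul])
  exact inv_mul_eq_one.1 h5

include hS hD hR in
/-- the lift of `t 0` -/
theorem h0_eq {x : Γ} (hx : x ∈ Mh π f M) (hπ : π x = f (t 0)) (v : V) : ρ x v = r 0 v := by
  obtain ⟨e, -, hl⟩ := hR.lift 0 x hπ
  obtain ⟨p, hp, hp0⟩ := P_ne hR 1
  have h3 := Mh_triv hD hR (i := 1) (by decide) hx hp
  have h4 : r 0 p = p := (fix_iff hS hR).2 fun u hu => hR.perp 0 1 (by decide) u hu p hp
  rw [hl, h4] at h3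
  have he1 : e = 1 := by
    have h5 : (e - 1) • p = 0 := by rw [sub_smul, h3, one_smul, sub_self]
    exact sub_eq_zero.1 ((smul_eq_zero.1 h5).resolve_right hp0)
  rw [hl, he1, one_smul]

/-- the space `X` -/
abbrev XX (ρ : Γ →* Module.End F V) (π : Γ →* T) (f : G →* T) (M : Subgroup G) (r : Fin 3 → Module.End F V) : Submodule F V :=
  Sp ρ (Mh π f M) (LinearMap.range (r 0 - 1))

include hS hD hR in
theorem X_perp {i : Fin 3} (hi : i ≠ 0) {x u : V} (hx : x ∈ XX ρ π f M r) (hu : u ∈ LinearMap.range (r i - 1)) :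
    polar Q x u = 0 :=
  Sp_perp hS (fun _ hm => Mh_triv hD hR hi hm hu) (fun p hp => hR.perp 0 i hi.symm p hp u hu) hx

include hS hD hR hT in
theorem exists_y : ∃ y ∈ XX ρ π f M r, y ≠ 0 ∧ r 0 y = y := by
  by_contra hcon
  push Not at hcon
  have h1 : ∀ x ∈ XX ρ π f M r, x ∈ LinearMap.range (r 0 - 1) := by
    intro x hx
    obtain ⟨p, hp, z, hz, rfl⟩ := exists_dec hR 0 x
    have hzX : z ∈ XX ρ π f M r := by
      have := Submodule.sub_mem _ hx (le_Sp (ρ := ρ) (H := Mh π f M) hp)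
      rwa [add_sub_cancel_left] at this
    have hz0 : z = 0 := by
      by_contra h
      exact hcon z hzX h hz
    rw [hz0, add_zero]
    exact hp
  obtain ⟨h0, hh0, hπ⟩ := Mh_lift hS hD hD.mem
  exact lift_ne hR hπ (hT _ (Mh_perf hS hD) 0 (fun h hh v hv => h1 _ (mem_Sp hh hv)) h0 hh0)

include hS hD hR in
/-- `M` is trivial on the orthogonal space of `X` -/
theorem Mh_pp {x : Γ} (hx : x ∈ Mh π f M) {v : V} (hv : ∀ u ∈ XX ρ π f M r, polar Q u v = 0) : ρ x v = v := by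
  let N : Subgroup G :=
    { carrier := {m | m ∈ M ∧ ∃ x ∈ Mh π f M, π x = f m ∧ ∀ v, (∀ u ∈ XX ρ π f M r, polar Q u v = 0) → ρ x v = v}
      mul_mem' := by
        rintro a b ⟨ha, x, hx, hxa, hxv⟩ ⟨hb, y, hy, hyb, hyv⟩
        exact ⟨mul_mem ha hb, x * y, mul_mem hx hy, by rw [map_mul, map_mul, hxa, hyb], fun v hv => by
          rw [mul_ap, hyv v hv, hxv v hv]⟩
      one_mem' := ⟨one_mem _, 1, one_mem _, by rw [map_one, map_one], fun v _ => one_ap v⟩
      inv_mem' := by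
        rintro a ⟨ha, x, hx, hxa, hxv⟩
        exact ⟨inv_mem ha, x⁻¹, inv_mem hx, by rw [map_inv, map_inv, hxa], fun v hv => by
          nth_rewrite 1 [← hxv v hv]
          rw [inv_ap]⟩ }
  have hN : N = M := by
    apply hD.M_top
    · exact fun m hm => hm.1
    · rintro a ha m ⟨hm, y, hy, hym, hyv⟩
      obtain ⟨z, hz, hza⟩ := Mh_lift hS hD ha
      refine ⟨mul_mem (mul_mem ha hm) (inv_mem ha), z * y * z⁻¹, mul_mem (mul_mem hz hy) (inv_mem hz), ?_, ?_⟩
      · rw [map_mul, map_mul, map_mul, map_mul, map_inv, map_inv, hza, hym]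
      · intro v hv
        rw [mul_ap, mul_ap, hyv, ap_inv]
        intro u hu
        rw [← inv_inv z, inv_inv z⁻¹, ← pol_inv hS]
        exact hv _ (Sp_inv hz hu)
    · obtain ⟨h0, hh0, hπ⟩ := Mh_lift hS hD hD.mem
      refine ⟨hD.mem, h0, hh0, hπ, fun v hv => ?_⟩
      rw [h0_eq hS hD hR hh0 hπ]
      exact (fix_iff hS hR).2 fun p hp => hv p (le_Sp hp)
  obtain ⟨m, hm, hmx⟩ := Mh_pi hx
  have hmN : m ∈ N := by rw [hN]; exact hm
  obtain ⟨-, y, hy, hym, hyv⟩ := hmN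
  have : x = y := Mh_uniq hS hD hR hx hy (by rw [← hmx, hym])
  rw [this]
  exact hyv v hv

/-! ### dimension of `X` -/

include hS hR in
theorem P_disj {i j : Fin 3} (hij : i ≠ j) : Disjoint (LinearMap.range (r i - 1)) (LinearMap.range (r j - 1)) := by
  rw [Submodule.disjoint_def]
  intro x hx hx'
  exact P_nd hS hR hx fun v hv => hR.perp i j hij v hv x hx'

include hS hD hR in
theorem X_le : finrank F (XX ρ π f M r) ≤ 4 := by
  have h1 : XX ρ π f M r ≤ pp Q (LinearMap.range (r 1 - 1) ⊔ LinearMap.range (r 2 - 1)) := by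
    intro x hx w hw
    obtain ⟨a, ha, b, hb, rfl⟩ := Submodule.mem_sup.1 hw
    rw [polar_comm, polar_add_right, X_perp hS hD hR (by decide) hx ha, X_perp hS hD hR (by decide) hx hb, add_zero]
  have h2 := Submodule.finrank_mono h1
  have h3 := finrank_pp (nd hS) (LinearMap.range (r 1 - 1) ⊔ LinearMap.range (r 2 - 1))
  have h4 := Submodule.finrank_sup_add_finrank_inf_eq (LinearMap.range (r 1 - 1)) (LinearMap.range (r 2 - 1))
  rw [(P_disj hS hR (i := 1) (j := 2) (by decide)).eq_bot, finrank_bot, hR.dim, hR.dim] at h4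
  rw [hS.dim] at h3
  omega

include hS hf hD hR hT in
/-- `dim X ≠ 4` -/
theorem X_ne_four (h4 : finrank F (XX ρ π f M r) = 4) : False := by
  obtain ⟨h0, hh0, hπ0⟩ := Mh_lift hS hD hD.mem
  obtain ⟨S, hSs⟩ := hS.surj (f s)
  have hcom : ∀ m' ∈ Mh π f M, ∀ m ∈ Mh π f M, (S * m' * S⁻¹) * m = m * (S * m' * S⁻¹) := by
    intro m' hm' m hm
    refine hat_comm hS.central (M := M.map f) (x := S * m' * S⁻¹) ?_ hm
    rintro _ ⟨a, ha, rfl⟩
    obtain ⟨b, hb, hbm⟩ := Mh_pi hm'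
    have e : π (S * m' * S⁻¹) = f (s * b * s⁻¹) := by
      rw [map_mul, map_mul, map_mul, map_mul, map_inv, map_inv, hSs, hbm]
    rw [e, ← map_mul, ← map_mul, ← hD.s_comm a ha b hb]
  -- the conjugate of the lift
  let Ms : Subgroup Γ := cj S (Mh π f M)
  have hMs : ⁅Ms, Ms⁆ = Ms := by
    change ⁅(Mh π f M).map _, (Mh π f M).map _⁆ = (Mh π f M).map _
    rw [← Subgroup.map_commutator, Mh_perf hS hD]
  have hMsm : ∀ y ∈ Ms, ∃ m ∈ Mh π f M, y = S * m * S⁻¹ := by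
    rintro _ ⟨m, hm, rfl⟩
    exact ⟨m, hm, rfl⟩
  have hmem : ∀ m ∈ Mh π f M, S * m * S⁻¹ ∈ Ms := fun m hm => ⟨m, hm, rfl⟩
  have hMs0 : ∀ y ∈ Ms, ∀ v ∈ LinearMap.range (r 0 - 1), ρ y v = v := by
    refine hT Ms hMs 0 fun y hy v hv => ?_
    obtain ⟨m, hm, rfl⟩ := hMsm y hy
    obtain ⟨a, rfl⟩ := hv
    change ρ (S * m * S⁻¹) (r 0 a - a) ∈ _
    rw [← h0_eq hS hD hR hh0 hπ0, map_sub, ← mul_ap, hcom m hm h0 hh0, mul_ap, h0_eq hS hD hR hh0 hπ0]
    exact mem_P hR 0 _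
  have hMsX : ∀ y ∈ Ms, ∀ x ∈ XX ρ π f M r, ρ y x = x := by
    intro y hy x hx
    refine Sp_fix (fun m hm => ?_) (hMs0 y hy) hx
    obtain ⟨m', hm', rfl⟩ := hMsm y hy
    exact hcom m' hm' m hm
  have hperp : ∀ x ∈ XX ρ π f M r, ∀ x' ∈ XX ρ π f M r, polar Q x (ρ S x') = 0 := by
    intro x hx x' hx'
    induction hx' using Submodule.span_induction with
    | mem x' hx' =>
      obtain ⟨m, hm, p, ⟨a, rfl⟩, rfl⟩ := hx'
      change polar Q x (ρ S (ρ m (r 0 a - a))) = 0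
      have e1 : ρ S (ρ m (r 0 a - a)) = ρ (S * m * S⁻¹) (ρ (S * h0 * S⁻¹) (ρ S a) - ρ S a) := by
        rw [← h0_eq hS hD hR hh0 hπ0, map_sub, map_sub, map_sub]
        simp only [← mul_ap]
        congr 2
        · congr 1; group
        · congr 1; group
      rw [e1, polar_comm, pol_inv hS, hMsX _ (inv_mem (hmem m hm)) x hx]
      exact pol_fix hS (hMsX _ (hmem h0 hh0) x hx) _
    | zero => rw [map_zero, polar_zero_right]
    | add a b _ _ ha hb => rw [map_add, polar_add_right, ha, hb, add_zero]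
    | smul e a _ ha => rw [map_smul, polar_smul_right, ha, smul_zero]
  -- the image is the orthogonal space
  have hinj : Function.Injective (ρ S) := by
    intro a b hab
    have := congrArg (ρ S⁻¹) hab
    rwa [inv_ap, inv_ap] at this
  have hmap : (XX ρ π f M r).map (ρ S) = pp Q (XX ρ π f M r) := by
    apply Submodule.eq_of_le_of_finrank_eq
    · rintro _ ⟨x', hx', rfl⟩ x hx
      exact hperp x hx x' hx'
    · have e1 := finrank_pp (nd hS) (XX ρ π f M r)
      rw [hS.dim, h4] at e1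
      rw [← (Submodule.equivMapOfInjective (ρ S) hinj (XX ρ π f M r)).finrank_eq, h4]
      omega
  have hback : ∀ v ∈ pp Q (XX ρ π f M r), ρ S v ∈ XX ρ π f M r := by
    intro v hv
    rw [← pp_pp (nd hS) (XX ρ π f M r), ← hmap]
    rintro _ ⟨x, hx, rfl⟩
    rw [pol hS]
    exact hv x hx
  have hforth : ∀ x ∈ XX ρ π f M r, ρ S x ∈ pp Q (XX ρ π f M r) := by
    intro x hx
    rw [← hmap]
    exact ⟨x, hx, rfl⟩
  have hpow : ∀ j : ℕ, ∀ x ∈ XX ρ π f M r, ρ (S ^ (2 * j + 1)) x ∈ pp Q (XX ρ π f M r) := by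
    intro j
    induction j with
    | zero => intro x hx; rw [Nat.mul_zero, Nat.zero_add, pow_one]; exact hforth x hx
    | succ j ih =>
      intro x hx
      rw [show 2 * (j + 1) + 1 = (2 * j + 1) + 1 + 1 by ring, pow_succ, pow_succ, mul_ap, mul_ap]
      exact ih _ (hback _ (hforth x hx))
  obtain ⟨j, hj⟩ := hD.odd
  have hSk : π (S ^ k) = 1 := by rw [map_pow, hSs, ← map_pow, hD.s_pow, map_one]
  obtain ⟨e, he⟩ := (hS.ker _).1 hSk
  obtain ⟨p, hp, hp0⟩ := P_ne hR 0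
  have h5 := hpow j p (le_Sp hp)
  rw [← hj, he] at h5
  have he0 : e ≠ 0 := by
    rintro rfl
    have := inv_ap (ρ := ρ) (S ^ k) p
    rw [he, zero_smul, map_zero] at this
    exact hp0 this.symm
  apply hp0
  apply P_nd hS hR hp
  intro v hv
  have h6 := h5 v (le_Sp hv)
  rw [polar_smul_right, smul_eq_mul] at h6
  exact (mul_eq_zero.1 h6).resolve_left he0

include hS hf hD hR hT in
theorem X_three : finrank F (XX ρ π f M r) = 3 := by
  have h1 := X_le hS hD hR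
  have h2 : finrank F (XX ρ π f M r) ≠ 4 := fun h => X_ne_four hS hf hD hR hT h
  obtain ⟨y, hy, hy0, hy1⟩ := exists_y hS hD hR hT
  have h3 : finrank F (LinearMap.range (r 0 - 1)) < finrank F (XX ρ π f M r) := by
    apply Submodule.finrank_lt_finrank_of_lt
    refine lt_of_le_of_ne le_Sp fun h => ?_
    rw [← h] at hy
    exact hy0 (inf_zero hR hy hy1)
  rw [hR.dim] at h3
  omega

include hS hf h2 hD hR hT hRd in
/-- `X = P 0 ⊥ ⟨y⟩`, `Q y ≠ 0` -/
theorem exists_y' : ∃ y ∈ XX ρ π f M r, r 0 y = y ∧ Q y ≠ 0 := by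
  obtain ⟨y, hy, hy0, hy1⟩ := exists_y hS hD hR hT
  refine ⟨y, hy, hy1, fun hQ => ?_⟩
  have hX : ∀ x ∈ XX ρ π f M r, ∃ p ∈ LinearMap.range (r 0 - 1), ∃ a : F, x = p + a • y := by
    have h1 : LinearMap.range (r 0 - 1) ⊔ Submodule.span F {y} = XX ρ π f M r := by
      apply Submodule.eq_of_le_of_finrank_le
      · exact sup_le le_Sp ((Submodule.span_singleton_le_iff_mem _ _).2 hy)
      · rw [X_three hS hf hD hR hT]
        have h3 : finrank F (LinearMap.range (r 0 - 1)) <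
            finrank F ↥(LinearMap.range (r 0 - 1) ⊔ Submodule.span F {y}) := by
          apply Submodule.finrank_lt_finrank_of_lt
          refine lt_of_le_of_ne le_sup_left fun h => ?_
          have h4 : y ∈ LinearMap.range (r 0 - 1) := by
            rw [h]
            exact Submodule.mem_sup_right (Submodule.mem_span_singleton_self y)
          exact hy0 (inf_zero hR h4 hy1)
        rw [hR.dim] at h3
        omega
    intro x hx
    rw [← h1] at hx
    obtain ⟨p, hp, z, hz, rfl⟩ := Submodule.mem_sup.1 hx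
    obtain ⟨a, rfl⟩ := Submodule.mem_span_singleton.1 hz
    exact ⟨p, hp, a, rfl⟩
  have hyX : ∀ u ∈ XX ρ π f M r, polar Q u y = 0 := by
    intro u hu
    obtain ⟨p, hp, a, rfl⟩ := hX u hu
    rw [polar_add_left, polar_smul_left, QuadraticMap.polar_self, hQ, (fix_iff hS hR).1 hy1 p hp]
    simp
  obtain ⟨h0, hh0, hπ⟩ := Mh_lift hS hD hD.mem
  refine lift_ne hR hπ (hRd _ (Mh_perf hS hD) 0 y hQ (fun p hp => (fix_iff hS hR).1 hy1 p hp)
    (fun h hh => Mh_pp hS hD hR hh hyX) (fun h hh v hv => hX _ (mem_Sp hh hv)) h0 hh0)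

end om

end Cfsg.Agent.H442.O8R
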